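import Mathlib
import Cfsg.Agent.Lib.Helper35.JR.Defs

/-!
# JR (S3206) package [PSL]: the two facts on `PSL₂(F)` from [SYL4], [KEY0], [FODD].
-/

set_option autoImplicit false

namespace Cfsg.Agent.Lib.Helper19.JR

open Cfsg.Agent.Lib.Helper35.JR

universe u

theorem two_ne_zero_of_odd_card (F : Type u) [Field F] [Fintype F]
    (hodd : Odd (Fintype.card F)) : (2 : F) ≠ 0 := by
  intro h
  have hc : ringChar F = 2 :=
    CharP.ringChar_of_prime_eq_zero Nat.prime_two (by exact_mod_cast h)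
  have := FiniteField.even_card_iff_char_two.mp hc
  rcases hodd with ⟨m, hm⟩
  omega

theorem exists_sq_add_sq_eq_neg_one (F : Type u) [Field F] [Fintype F]
    (hodd : Odd (Fintype.card F)) : ∃ a b : F, a ^ 2 + b ^ 2 = -1 := by
  have hR : Fintype.card F % 2 = 1 := Nat.odd_iff.mp hodd
  have hf : (Polynomial.X ^ 2 : Polynomial F).degree = 2 := by
    rw [Polynomial.degree_X_pow]; rfl
  have hg : (Polynomial.X ^ 2 + Polynomial.C (1 : F) : Polynomial F).degree = 2 := by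
    rw [Polynomial.degree_X_pow_add_C (by norm_num)]; rfl
  obtain ⟨a, b, hab⟩ := FiniteField.exists_root_sum_quadratic hf hg hR
  refine ⟨a, b, ?_⟩
  simp only [Polynomial.eval_pow, Polynomial.eval_X, Polynomial.eval_add,
    Polynomial.eval_C] at hab
  linear_combination hab

theorem pkgPSL (hS : PkgSyl4.{u}) (hK : PkgKey0.{u}) (hF : PkgFodd.{u}) : PkgPSL.{u} := by
  intro F _ _ hodd _h3 hab
  have h2 : (2 : F) ≠ 0 := two_ne_zero_of_odd_card F hodd
  obtain ⟨a, b, habe⟩ := exists_sq_add_sq_eq_neg_one F hodd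
  have hS' := hS F h2 a b habe hab
  have h1 : ∀ P : Sylow 2 (Matrix.ProjectiveSpecialLinearGroup (Fin 2) F),
      Nat.card ↥(P : Subgroup (Matrix.ProjectiveSpecialLinearGroup (Fin 2) F)) = 4 ∧
      ∀ x ∈ (P : Subgroup (Matrix.ProjectiveSpecialLinearGroup (Fin 2) F)), x ^ 2 = 1 :=
    fun P => ⟨(hS' P).1, (hS' P).2.1⟩
  refine ⟨h1, ?_⟩
  intro α k hα P hfix
  obtain ⟨-, -, g, hg⟩ := hS' P
  have hσ := hF F hodd (fun P => (h1 P).2)
  let c : MulAut (Matrix.ProjectiveSpecialLinearGroup (Fin 2) F) := MulAut.conj g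
  let α' : Matrix.ProjectiveSpecialLinearGroup (Fin 2) F ≃*
      Matrix.ProjectiveSpecialLinearGroup (Fin 2) F := c⁻¹ * α * c
  have happ : ∀ x, α' x = g⁻¹ * α (g * x * g⁻¹) * g := by
    intro x
    show (c⁻¹ * α * c) x = _
    rw [MulAut.mul_apply, MulAut.mul_apply]
    show (MulAut.conj g)⁻¹ (α (MulAut.conj g x)) = _
    rw [MulAut.conj_inv_apply, MulAut.conj_apply]
  have hα' : α' ^ (2 ^ k) = 1 := by
    have h0 : α' = c⁻¹ * α * (c⁻¹)⁻¹ := by simp [α']
    rw [h0, conj_pow, hα]; simp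
  have hfixV : ∀ v ∈ V0 a b habe, α' v = v := by
    intro v hv
    have hmem : g * v * g⁻¹ ∈ (P : Subgroup (Matrix.ProjectiveSpecialLinearGroup (Fin 2) F)) := by
      rw [hg]
      have : g⁻¹ * (g * v * g⁻¹) * g = v := by group
      rw [this]; exact hv
    rw [happ, hfix _ hmem]; group
  have hA : α' (pA F) = pA F := hfixV _ (by simp [V0])
  have hB : α' (pB a b habe) = pB a b habe := hfixV _ (by simp [V0])
  obtain ⟨v, hv, hv'⟩ := hK F h2 a b habe hσ α' k hα' hA hB
  refine ⟨g * v * g⁻¹, ?_, ?_⟩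
  · rw [hg]
    have : g⁻¹ * (g * v * g⁻¹) * g = v := by group
    rw [this]; exact hv
  · intro x
    have h3 := hv' (g⁻¹ * x * g)
    rw [happ] at h3
    have h4 : g * (g⁻¹ * x * g) * g⁻¹ = x := by group
    rw [h4] at h3
    have h5 : α x = g * (g⁻¹ * α x * g) * g⁻¹ := by group
    rw [h5, h3]; group

end Cfsg.Agent.Lib.Helper19.JR
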